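import Cfsg.Agent.H217.Odm.Eng
import Cfsg.Agent.H257.El.Row.Fi24
import Cfsg.Agent.H843.N29

/-!
# TEAM ODDM (S4785): the row `Fi24'` (helper52)

Elements of order 29 are self-centralising in `Fi24` (helper843, helper377), hence in `Fi24'` the normalizer of a
subgroup of order 29 has order `29 * 14` and the elements of order 29 are real; a product of two non-commuting
transpositions is a real element of order 3. There is no element of order `29 * 3`.
-/

set_option autoImplicit false
set_option linter.constructorNameAsVariable false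

namespace Cfsg.Agent.H52.OdmRowFi24

open Cfsg Subgroup Cfsg.Agent.OrdDiv Cfsg.Agent.H453.OddM Cfsg.Agent.H217.Odm
open Cfsg.Agent.H377.SporRow (exists_cyclic)
open Cfsg.Agent.Fischer.Fi24Class (gen gen_sq gen_inv gen_comm gen_rel k_ncomm_l)
open Cfsg.Agent.R08.FiTwentyFour (mul_mem_commutator gen_mem_L)

universe u

/-! ### elements of order 3 -/

theorem card_ne : Nat.card (commutator Spor.Fi24) ≠ 1 := by
  rw [Cfsg.Agent.R08.FiTwentyFour.card_commutator]; norm_num

theorem realP_three_model : RealP Spor.Fi24' 3 := by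
  refine ⟨⟨gen .l * gen .k, mul_mem_commutator (gen_mem_L _) (gen_mem_L _)⟩, ?_,
    ⟨gen .l * gen .d, mul_mem_commutator (gen_mem_L _) (gen_mem_L _)⟩, Subtype.ext ?_⟩
  · have : Fact (Nat.Prime 3) := ⟨by norm_num⟩
    rw [Subgroup.orderOf_mk]
    refine orderOf_eq_prime (gen_rel .l .k) fun h => ?_
    have h1 : gen .k = gen .l := by
      rw [← gen_inv .l]
      exact eq_inv_of_mul_eq_one_right h
    exact k_ncomm_l card_ne (by rw [h1])
  · show gen .l * gen .d * (gen .l * gen .k) * (gen .l * gen .d)⁻¹ = (gen .l * gen .k)⁻¹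
    have h1 : gen .l * gen .d = gen .d * gen .l := gen_comm .l .d (by decide)
    have h2 : gen .k * gen .d = gen .d * gen .k := gen_comm .k .d (by decide)
    rw [mul_inv_rev, mul_inv_rev, gen_inv, gen_inv, gen_inv]
    calc gen .l * gen .d * (gen .l * gen .k) * (gen .d * gen .l)
        = gen .l * (gen .d * gen .l) * (gen .k * gen .d) * gen .l := by group
      _ = gen .l * gen .l * (gen .d * gen .d) * gen .k * gen .l := by rw [← h1, h2]; group
      _ = gen .k * gen .l := by rw [gen_sq, gen_sq, one_mul, one_mul]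

theorem realP_three {T : Type*} [Group T] (h : Spor.IsoFi24' T) : RealP T 3 := by
  obtain ⟨e⟩ := h
  obtain ⟨x, hx, hr⟩ := realP_three_model
  exact ⟨e.symm x, by rw [MulEquiv.orderOf_eq, hx], hr.map e.symm.toMonoidHom⟩

/-! ### elements of order 29 -/

theorem cent_fi24 {x : Spor.Fi24} (hx : orderOf x = 29) :
    Nat.card (centralizer ({x} : Set Spor.Fi24)) ≤ 29 := by
  have hfin : Finite Spor.Fi24 := R08.FiTwentyFour.finite_Fi24
  have : Fact (Nat.Prime 29) := ⟨by norm_num⟩
  obtain ⟨P, hP⟩ := exists_cyclic (K := Spor.Fi24) (p := 29) (by rw [H843.Fi24N.card_Fi24]; norm_num)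
  obtain ⟨s, -, hs⟩ := Cfsg.Agent.H568.conj_of_cyclic P hP H843.D29.order x hx
  obtain ⟨i, hi⟩ := hs
  have hi' : x ^ i = s * H843.D29.D.x * s⁻¹ := hi
  have hmem : ∀ c : centralizer ({x} : Set Spor.Fi24),
      s⁻¹ * (c : Spor.Fi24) * s ∈ centralizer (zpowers H843.D29.D.x : Set Spor.Fi24) := by
    intro c
    rw [H843.Cyc.mem_centralizer_zpowers]
    have h1 : Commute (c : Spor.Fi24) x := mem_centralizer_singleton_iff.1 c.2
    have h2 : (c : Spor.Fi24) * (s * H843.D29.D.x * s⁻¹) = s * H843.D29.D.x * s⁻¹ * c := by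
      rw [← hi']; exact (h1.zpow_right i).eq
    calc s⁻¹ * (c : Spor.Fi24) * s * H843.D29.D.x
        = s⁻¹ * ((c : Spor.Fi24) * (s * H843.D29.D.x * s⁻¹)) * s := by group
      _ = H843.D29.D.x * (s⁻¹ * (c : Spor.Fi24) * s) := by rw [h2]; group
  rw [← H843.D29.main.2]
  refine Nat.card_le_card_of_injective
    (fun c : centralizer ({x} : Set Spor.Fi24) =>
      (⟨s⁻¹ * (c : Spor.Fi24) * s, hmem c⟩ : centralizer (zpowers H843.D29.D.x : Set Spor.Fi24))) ?_
  intro c d hcd
  have h1 : s⁻¹ * (c : Spor.Fi24) * s = s⁻¹ * (d : Spor.Fi24) * s := congrArg Subtype.val hcd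
  exact Subtype.ext (mul_left_cancel (mul_right_cancel h1))

theorem cent {T : Type*} [Group T] (h : Spor.IsoFi24' T) {x : T} (hx : orderOf x = 29) :
    Nat.card (centralizer ({x} : Set T)) = 29 := by
  have hfin : Finite Spor.Fi24 := R08.FiTwentyFour.finite_Fi24
  obtain ⟨e⟩ := h
  have hfT : Finite T := Finite.of_equiv _ e.symm.toEquiv
  have h1 : Nat.card (centralizer ({x} : Set T)) ≤ 29 := by
    refine le_trans ?_ (cent_fi24 (x := (e x : Spor.Fi24)) (by rw [Subgroup.orderOf_coe, MulEquiv.orderOf_eq, hx]))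
    refine Nat.card_le_card_of_injective (fun c : centralizer ({x} : Set T) =>
      (⟨(e (c : T) : Spor.Fi24), mem_centralizer_singleton_iff.2 ?_⟩ :
        centralizer ({(e x : Spor.Fi24)} : Set Spor.Fi24))) ?_
    · have h2 : (c : T) * x = x * c := mem_centralizer_singleton_iff.1 c.2
      rw [← Subgroup.coe_mul, ← Subgroup.coe_mul, ← map_mul, ← map_mul, h2]
    · intro c d hcd
      have h2 : (e (c : T) : Spor.Fi24) = (e (d : T) : Spor.Fi24) :=
        congrArg (fun z : centralizer ({(e x : Spor.Fi24)} : Set Spor.Fi24) => (z : Spor.Fi24)) hcd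
      exact Subtype.ext (e.injective (Subtype.ext h2))
  have h2 : 29 ∣ Nat.card (centralizer ({x} : Set T)) := by
    have h3 : orderOf (⟨x, mem_centralizer_singleton_iff.2 rfl⟩ : centralizer ({x} : Set T)) = 29 := by
      rw [Subgroup.orderOf_mk, hx]
    rw [← h3]
    exact orderOf_dvd_natCard _
  exact le_antisymm h1 (Nat.le_of_dvd Nat.card_pos h2)

theorem row (tab : OrderTable.{u}) (known : Cfsg.Agent.H257.El.Known.{u}) {T : Type u} [Group T]
    (h : Spor.IsoFi24' T) : Row T := by
  have hc := NotCT.Orders.fi24 h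
  have hfin : Finite T := Nat.finite_of_card_ne_zero (by rw [hc]; norm_num)
  have h29 : Nat.Prime 29 := by norm_num
  have key : ∀ x : T, orderOf x = 29 →
      Nat.card (normalizer ((zpowers x : Subgroup T) : Set T)) = 29 * (1 * 14) ∧ (Even 14 → IsReal x) :=
    fun x hx => norm_of_cent h29 (n := 1255205709190661721292800 / 29) (by rw [hc]) (by norm_num) hx
      (by rw [cent h hx]) (by norm_num) (by norm_num)
  have hreal : RealP T 29 := by
    have : Fact (Nat.Prime 29) := ⟨h29⟩
    obtain ⟨x, hx⟩ := exists_prime_orderOf_dvd_card' (G := T) 29 (by rw [hc]; norm_num)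
    exact ⟨x, hx, (key x hx).2 (by decide)⟩
  refine row_of_two (n := 1255205709190661721292800)
    (l := [(2, 21), (3, 16), (5, 2), (7, 3), (11, 1), (13, 1), (17, 1), (23, 1), (29, 1)]) (r := 29) (nu := 14)
    (ss := [3]) tab known hc h29 hreal (fun x hx => (key x hx).1) ?_ (by decide +kernel)
  intro s hs
  rw [List.mem_singleton] at hs
  subst hs
  exact ⟨by norm_num, realP_three h, H257.El.Row.noOrd_fi24 h (by norm_num) (by norm_num)⟩

end Cfsg.Agent.H52.OdmRowFi24
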